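import Mathlib
import Cfsg.Prelude.Def_Classical

/-!
# S1920, box PAR: parity lemmas (helper79)

`V` a space with a symmetric form `B`, characteristic not 2, `U` a nondegenerate subspace, all maps preserve `U`.

* `even_of_alt`: a nondegenerate skew form lives on an even dimensional space;
* `even_of_skew`: `N` skew and injective on `U`: `finrank U` is even;
* `even_of_nonsq`: `N ^ 2 = l` not a square: `finrank U` is even (`U` any invariant subspace);
* `even_of_anticomm`: `N₁ N₂ = - N₂ N₁`, both injective: `finrank U` is even (`U` any invariant subspace);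
* `four_of_skew_skew`: `N₁`, `N₂` skew, anticommuting, squares nonzero scalars: `4 ∣ finrank U`;
* `four_of_skew_nonsq`: `N₁` skew, injective, `N₂` selfadjoint, commuting with `N₁`, `N₂ ^ 2` not a square: `4 ∣ finrank U`;
* `nd_inf_eig`, `nd_inf_eig_neg`: the eigenspaces of a selfadjoint `N`, `N ^ 2 = ν ^ 2`, on `U` are nondegenerate.

The second half: the same for similitudes of `quadFormPlus m F` (matrices).
-/

set_option autoImplicit false
set_option linter.unusedSectionVars false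

namespace Cfsg.Agent.H79.Co3

open Module LinearMap

section abs

variable {F V : Type*} [Field F] [AddCommGroup V] [Module F V] [FiniteDimensional F V]

/-- a nondegenerate skew form -/
theorem even_of_alt (h2 : (2 : F) ≠ 0) (β : V →ₗ[F] V →ₗ[F] F) (hs : ∀ u v, β u v = - β v u)
    (hn : ∀ u, (∀ v, β u v = 0) → u = 0) : Even (finrank F V) := by
  by_contra hodd
  rw [Nat.not_even_iff_odd] at hodd
  let b := Module.finBasis F V
  let A : Matrix (Fin (finrank F V)) (Fin (finrank F V)) F := fun i j => β (b i) (b j)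
  have hA : A.transpose = -A := by
    ext i j
    exact hs _ _
  have h1 : A.det = -A.det := by
    conv_lhs => rw [← Matrix.det_transpose, hA, Matrix.det_neg, Fintype.card_fin, hodd.neg_one_pow, neg_one_mul]
  have h3 : A.det = 0 := by
    have h4 : (2 : F) * A.det = 0 := by
      rw [two_mul]
      nth_rewrite 2 [h1]
      exact add_neg_cancel _
    exact (mul_eq_zero.1 h4).resolve_left h2
  obtain ⟨v, hv, hvA⟩ := Matrix.exists_vecMul_eq_zero_iff.2 h3
  apply hv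
  have h5 : ∑ i, v i • b i = 0 := by
    apply hn
    intro w
    have h6 : ∀ j, β (∑ i, v i • b i) (b j) = 0 := by
      intro j
      rw [map_sum, LinearMap.sum_apply]
      have := congrFun hvA j
      rw [Matrix.vecMul, dotProduct] at this
      rw [← Pi.zero_apply (M := fun _ => F) j, ← this]
      refine Finset.sum_congr rfl fun i _ => ?_
      rw [map_smul, LinearMap.smul_apply, smul_eq_mul]
    have h7 : β (∑ i, v i • b i) = 0 := b.ext h6
    rw [h7]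
    rfl
  ext i
  exact (Fintype.linearIndependent_iff.1 b.linearIndependent) v h5 i

/-- `N ^ 2 = l` not a square -/
theorem even_of_nonsq' {N : V →ₗ[F] V} {l : F} (hN : ∀ v, N (N v) = l • v) (hl : ¬ IsSquare l) :
    Even (finrank F V) := by
  by_contra hodd
  rw [Nat.not_even_iff_odd] at hodd
  apply hl
  have h1 : N ∘ₗ N = l • LinearMap.id := LinearMap.ext hN
  have h2 : LinearMap.det N * LinearMap.det N = l ^ finrank F V := by
    rw [← LinearMap.det_comp, h1, LinearMap.det_smul, LinearMap.det_id, mul_one]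
  obtain ⟨k, hk⟩ := hodd
  have hl0 : l ≠ 0 := by
    rintro rfl
    exact hl (IsSquare.zero)
  refine ⟨LinearMap.det N * (l ^ k)⁻¹, ?_⟩
  have h3 : l ^ k ≠ 0 := pow_ne_zero _ hl0
  have h4 : l ^ finrank F V = l * (l ^ k * l ^ k) := by
    rw [hk, ← pow_add, ← pow_succ']
    congr 1
    omega
  rw [h4] at h2
  field_simp
  linear_combination -h2

/-- anticommuting injective maps -/
theorem even_of_anticomm' (h2 : (2 : F) ≠ 0) {N₁ N₂ : V →ₗ[F] V} (h : ∀ v, N₁ (N₂ v) = - N₂ (N₁ v))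
    (h₁ : ∀ v, N₁ v = 0 → v = 0) (h₂ : ∀ v, N₂ v = 0 → v = 0) : Even (finrank F V) := by
  by_contra hodd
  rw [Nat.not_even_iff_odd] at hodd
  have hd : ∀ N : V →ₗ[F] V, (∀ v, N v = 0 → v = 0) → LinearMap.det N ≠ 0 := by
    intro N hN
    have hinj : Function.Injective N := (injective_iff_map_eq_zero N).2 hN
    have h3 := (LinearEquiv.ofInjectiveEndo N hinj).isUnit_det'
    have h4 : ((LinearEquiv.ofInjectiveEndo N hinj : V ≃ₗ[F] V) : V →ₗ[F] V) = N := by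
      ext v
      rfl
    rw [h4] at h3
    exact h3.ne_zero
  have h3 : N₁ ∘ₗ N₂ = (-1 : F) • (N₂ ∘ₗ N₁) := by
    ext v
    rw [LinearMap.smul_apply, neg_one_smul]
    exact h v
  have h4 := congrArg LinearMap.det h3
  rw [LinearMap.det_smul, hodd.neg_one_pow, LinearMap.det_comp, LinearMap.det_comp, neg_one_mul,
    mul_comm (LinearMap.det N₂)] at h4
  have h5 : (2 : F) * (LinearMap.det N₁ * LinearMap.det N₂) = 0 := by
    rw [two_mul]
    nth_rewrite 2 [h4]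
    exact add_neg_cancel _
  rcases mul_eq_zero.1 h5 with h6 | h6
  · exact h2 h6
  · exact mul_ne_zero (hd _ h₁) (hd _ h₂) h6

/-- `W ≤ W^⊥` for the skew form `β`, `N`-invariant, maximal: `dim V = 2 dim W`. -/
theorem exists_lagr (h2 : (2 : F) ≠ 0) (β : V →ₗ[F] V →ₗ[F] F) (hs : ∀ u v, β u v = - β v u)
    (hn : ∀ u, (∀ v, β u v = 0) → u = 0) {N : V →ₗ[F] V} (hN : ∀ u v, β (N u) v = β u (N v)) {l : F}
    (hN2 : ∀ v, N (N v) = l • v) :
    ∃ W : Submodule F V, (∀ v ∈ W, N v ∈ W) ∧ finrank F V = 2 * finrank F W := by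
  let P : Submodule F V → Prop := fun W => (∀ v ∈ W, N v ∈ W) ∧ ∀ u ∈ W, ∀ v ∈ W, β u v = 0
  have hP0 : P ⊥ := by
    refine ⟨fun v hv => ?_, fun u hu v hv => ?_⟩
    · rw [Submodule.mem_bot] at hv ⊢
      rw [hv, map_zero]
    · rw [Submodule.mem_bot] at hu
      rw [hu, map_zero, LinearMap.zero_apply]
  obtain ⟨W, hW, hmax⟩ := (wellFounded_gt : WellFounded ((· > ·) : Submodule F V → Submodule F V → Prop)).has_min
    {W | P W} ⟨⊥, hP0⟩
  obtain ⟨hW1, hW2⟩ : P W := hW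
  refine ⟨W, hW1, ?_⟩
  -- `W^⊥ = W`
  have hperp : ∀ u, (∀ w ∈ W, β u w = 0) → u ∈ W := by
    intro u hu
    by_contra huW
    have hself : ∀ v, β v v = 0 := by
      intro v
      have h1 := hs v v
      have h3 : (2 : F) * β v v = 0 := by
        rw [two_mul]
        nth_rewrite 2 [h1]
        exact add_neg_cancel _
      exact (mul_eq_zero.1 h3).resolve_left h2
    have hself' : β u (N u) = 0 := by
      have h1 : β u (N u) = - β u (N u) := (hN u u).symm.trans (hs _ _)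
      have h3 : (2 : F) * β u (N u) = 0 := by
        rw [two_mul]
        nth_rewrite 2 [h1]
        exact add_neg_cancel _
      exact (mul_eq_zero.1 h3).resolve_left h2
    have hNu : ∀ w ∈ W, β (N u) w = 0 := fun w hw => by rw [hN]; exact hu _ (hW1 w hw)
    let W' := W ⊔ Submodule.span F {u, N u}
    have hlt : W < W' := by
      refine lt_of_le_of_ne le_sup_left fun h => huW ?_
      rw [h]
      exact Submodule.mem_sup_right (Submodule.subset_span (Set.mem_insert _ _))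
    refine hmax W' ?_ hlt
    have hmem : ∀ v, v ∈ W' ↔ ∃ w ∈ W, ∃ a b : F, v = w + (a • u + b • N u) := by
      intro v
      constructor
      · intro hv
        obtain ⟨w, hw, y, hy, rfl⟩ := Submodule.mem_sup.1 hv
        obtain ⟨a, b, rfl⟩ := Submodule.mem_span_pair.1 hy
        exact ⟨w, hw, a, b, rfl⟩
      · rintro ⟨w, hw, a, b, rfl⟩
        exact Submodule.add_mem_sup hw (Submodule.mem_span_pair.2 ⟨a, b, rfl⟩)
    refine ⟨?_, ?_⟩
    · intro v hv
      obtain ⟨w, hw, a, b, rfl⟩ := (hmem v).1 hv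
      refine (hmem _).2 ⟨N w, hW1 w hw, b * l, a, ?_⟩
      rw [map_add, map_add, map_smul, map_smul, hN2, smul_smul, add_comm (a • N u)]
    · intro v hv v' hv'
      obtain ⟨w, hw, a, b, rfl⟩ := (hmem v).1 hv
      obtain ⟨w', hw', a', b', rfl⟩ := (hmem v').1 hv'
      have e1 : β w u = 0 := by rw [hs, hu w hw, neg_zero]
      have e2 : β w (N u) = 0 := by rw [hs, hNu w hw, neg_zero]
      have e3 : β (N u) u = 0 := by rw [hs, hself', neg_zero]
      simp only [map_add, LinearMap.add_apply, map_smul, LinearMap.smul_apply, smul_eq_mul, hW2 w hw w' hw', e1, e2,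
        hu w' hw', hNu w' hw', hself u, hself (N u), hself', e3, mul_zero, add_zero]
  -- dimension count
  let φ : V →ₗ[F] (W →ₗ[F] F) := LinearMap.compl₂ β W.subtype
  have hφ : ∀ u (w : W), φ u w = β u w := fun _ _ => rfl
  have hker : LinearMap.ker φ = W := by
    ext u
    rw [LinearMap.mem_ker]
    constructor
    · intro h
      exact hperp u fun w hw => by rw [← hφ u ⟨w, hw⟩, h]; rfl
    · intro h
      ext w
      exact hW2 u h w w.2
  have hsurj : LinearMap.range φ = ⊤ := by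
    -- the functionals vanish only at zero
    by_contra hne
    have hlt : LinearMap.range φ < ⊤ := lt_top_iff_ne_top.2 hne
    obtain ⟨ξ, hξ0, hξ⟩ := Submodule.exists_le_ker_of_lt_top _ hlt
    -- `ξ` is evaluation at a vector
    obtain ⟨w, hw⟩ := (Module.evalEquiv F W).surjective ξ
    have hw0 : w ≠ 0 := by
      rintro rfl
      rw [map_zero] at hw
      exact hξ0 hw.symm
    apply hw0
    apply Subtype.ext
    apply hn
    intro v
    have h1 : ξ (φ v) = 0 := by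
      have := hξ (LinearMap.mem_range_self φ v)
      rwa [LinearMap.mem_ker] at this
    rw [← hw, Module.evalEquiv_apply] at h1
    have h3 : φ v w = 0 := h1
    rw [hs, ← hφ, h3, neg_zero]
  have h3 := LinearMap.finrank_range_add_finrank_ker φ
  rw [hker, hsurj, finrank_top] at h3
  have h4 : finrank F (W →ₗ[F] F) = finrank F W := Subspace.dual_finrank_eq
  rw [h4] at h3
  omega

/-- the form `B (N u) v` on `U` -/
def frm (B : V →ₗ[F] V →ₗ[F] F) (N : V →ₗ[F] V) (U : Submodule F V) : U →ₗ[F] U →ₗ[F] F :=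
  LinearMap.compl₂ (B ∘ₗ N ∘ₗ U.subtype) U.subtype

theorem frm_apply (B : V →ₗ[F] V →ₗ[F] F) (N : V →ₗ[F] V) (U : Submodule F V) (u v : U) :
    frm B N U u v = B (N u) v := rfl

variable {B : V →ₗ[F] V →ₗ[F] F} {U : Submodule F V} {N N₁ N₂ : V →ₗ[F] V} {l l₁ l₂ ν : F}

theorem frm_skew (hB : ∀ u v, B u v = B v u) (hs : ∀ u ∈ U, ∀ v ∈ U, B (N u) v = - B u (N v)) (u v : U) :
    frm B N U u v = - frm B N U v u := by
  rw [frm_apply, frm_apply, hs u u.2 v v.2, hB]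

theorem frm_nd (hU : ∀ u ∈ U, (∀ v ∈ U, B u v = 0) → u = 0) (hN : ∀ v ∈ U, N v ∈ U)
    (hi : ∀ v ∈ U, N v = 0 → v = 0) (u : U) (h : ∀ v, frm B N U u v = 0) : u = 0 :=
  Subtype.ext (hi u u.2 (hU _ (hN u u.2) fun v hv => h ⟨v, hv⟩))

/-- `N` skew and injective on `U` -/
theorem even_of_skew (h2 : (2 : F) ≠ 0) (hB : ∀ u v, B u v = B v u) (hU : ∀ u ∈ U, (∀ v ∈ U, B u v = 0) → u = 0)
    (hN : ∀ v ∈ U, N v ∈ U) (hs : ∀ u ∈ U, ∀ v ∈ U, B (N u) v = - B u (N v)) (hi : ∀ v ∈ U, N v = 0 → v = 0) :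
    Even (finrank F U) :=
  even_of_alt h2 (frm B N U) (frm_skew hB hs) (frm_nd hU hN hi)

/-- `N ^ 2 = l` on `U`, `l` not a square -/
theorem even_of_nonsq (hN : ∀ v ∈ U, N v ∈ U) (hN2 : ∀ v ∈ U, N (N v) = l • v) (hl : ¬ IsSquare l) :
    Even (finrank F U) :=
  even_of_nonsq' (N := N.restrict hN) (fun v => Subtype.ext (hN2 v v.2)) hl

/-- anticommuting injective maps on `U` -/
theorem even_of_anticomm (h2 : (2 : F) ≠ 0) (hN₁ : ∀ v ∈ U, N₁ v ∈ U) (hN₂ : ∀ v ∈ U, N₂ v ∈ U)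
    (h : ∀ v ∈ U, N₁ (N₂ v) = - N₂ (N₁ v)) (h₁ : ∀ v ∈ U, N₁ v = 0 → v = 0) (h₂ : ∀ v ∈ U, N₂ v = 0 → v = 0) :
    Even (finrank F U) :=
  even_of_anticomm' h2 (N₁ := N₁.restrict hN₁) (N₂ := N₂.restrict hN₂) (fun v => Subtype.ext (h v v.2))
    (fun v hv => Subtype.ext (h₁ v v.2 (congrArg Subtype.val hv)))
    (fun v hv => Subtype.ext (h₂ v v.2 (congrArg Subtype.val hv)))

/-- the nonsquare case of the two lemmas on divisibility by 4 -/
theorem four_aux (h2 : (2 : F) ≠ 0) (hB : ∀ u v, B u v = B v u) (hU : ∀ u ∈ U, (∀ v ∈ U, B u v = 0) → u = 0)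
    (hN₁ : ∀ v ∈ U, N₁ v ∈ U) (hs : ∀ u ∈ U, ∀ v ∈ U, B (N₁ u) v = - B u (N₁ v)) (hi : ∀ v ∈ U, N₁ v = 0 → v = 0)
    (hN₂ : ∀ v ∈ U, N₂ v ∈ U) (ha : ∀ u ∈ U, ∀ v ∈ U, B (N₁ (N₂ u)) v = B (N₁ u) (N₂ v))
    (hN2 : ∀ v ∈ U, N₂ (N₂ v) = l • v) (hl : ¬ IsSquare l) : 4 ∣ finrank F U := by
  obtain ⟨W, hW, hd⟩ := exists_lagr h2 (frm B N₁ U) (frm_skew hB hs) (frm_nd hU hN₁ hi) (N := N₂.restrict hN₂)
    (l := l) (fun u v => ha u u.2 v v.2) (fun v => Subtype.ext (hN2 v v.2))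
  have h1 : Even (finrank F W) :=
    even_of_nonsq' (N := (N₂.restrict hN₂).restrict hW) (l := l)
      (fun v => Subtype.ext (Subtype.ext (hN2 v v.1.2))) hl
  obtain ⟨k, hk⟩ := h1
  exact ⟨k, by omega⟩

/-- `N₁` skew, `N₂` selfadjoint, commuting, `N₂ ^ 2` not a square -/
theorem four_of_skew_nonsq (h2 : (2 : F) ≠ 0) (hB : ∀ u v, B u v = B v u)
    (hU : ∀ u ∈ U, (∀ v ∈ U, B u v = 0) → u = 0)
    (hN₁ : ∀ v ∈ U, N₁ v ∈ U) (hs : ∀ u ∈ U, ∀ v ∈ U, B (N₁ u) v = - B u (N₁ v)) (hi : ∀ v ∈ U, N₁ v = 0 → v = 0)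
    (hN₂ : ∀ v ∈ U, N₂ v ∈ U) (ha : ∀ u ∈ U, ∀ v ∈ U, B (N₂ u) v = B u (N₂ v))
    (hc : ∀ v ∈ U, N₁ (N₂ v) = N₂ (N₁ v)) (hN2 : ∀ v ∈ U, N₂ (N₂ v) = l • v) (hl : ¬ IsSquare l) :
    4 ∣ finrank F U :=
  four_aux h2 hB hU hN₁ hs hi hN₂ (fun u hu v hv => by rw [hc u hu, ha _ (hN₁ u hu) v hv]) hN2 hl

/-- `N₁`, `N₂` skew, anticommuting -/
theorem four_of_skew_skew (h2 : (2 : F) ≠ 0) (hB : ∀ u v, B u v = B v u)
    (hU : ∀ u ∈ U, (∀ v ∈ U, B u v = 0) → u = 0)
    (hN₁ : ∀ v ∈ U, N₁ v ∈ U) (hs₁ : ∀ u ∈ U, ∀ v ∈ U, B (N₁ u) v = - B u (N₁ v)) (hi₁ : ∀ v ∈ U, N₁ v = 0 → v = 0)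
    (hN₂ : ∀ v ∈ U, N₂ v ∈ U) (hs₂ : ∀ u ∈ U, ∀ v ∈ U, B (N₂ u) v = - B u (N₂ v))
    (hc : ∀ v ∈ U, N₁ (N₂ v) = - N₂ (N₁ v)) (hN2 : ∀ v ∈ U, N₂ (N₂ v) = l • v) (hl0 : l ≠ 0) :
    4 ∣ finrank F U := by
  have ha : ∀ u ∈ U, ∀ v ∈ U, B (N₁ (N₂ u)) v = B (N₁ u) (N₂ v) := by
    intro u hu v hv
    rw [hc u hu, map_neg, LinearMap.neg_apply, hs₂ _ (hN₁ u hu) v hv, neg_neg]
  by_cases hl : IsSquare l
  swap
  · exact four_aux h2 hB hU hN₁ hs₁ hi₁ hN₂ ha hN2 hl
  obtain ⟨ν, rfl⟩ := hl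
  have hν : ν ≠ 0 := fun h => hl0 (by rw [h, mul_zero])
  have h2ν : (2 : F) * ν ≠ 0 := mul_ne_zero h2 hν
  set M₁ := N₁.restrict hN₁ with hM₁
  set M₂ := N₂.restrict hN₂ with hM₂
  have hM2 : ∀ v, M₂ (M₂ v) = (ν * ν) • v := fun v => Subtype.ext (hN2 v v.2)
  have hMc : ∀ v, M₁ (M₂ v) = - M₂ (M₁ v) := fun v => Subtype.ext (hc v v.2)
  have hMi : Function.Injective M₁ :=
    (injective_iff_map_eq_zero M₁).2 fun v hv => Subtype.ext (hi₁ v v.2 (congrArg Subtype.val hv))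
  let E : F → Submodule F U := fun c => LinearMap.ker (M₂ - c • LinearMap.id)
  have hE : ∀ c v, v ∈ E c ↔ M₂ v = c • v := by
    intro c v
    rw [LinearMap.mem_ker, LinearMap.sub_apply, LinearMap.smul_apply, LinearMap.id_apply, sub_eq_zero]
  have hswap : ∀ c, ∀ v ∈ E c, M₁ v ∈ E (-c) := by
    intro c v hv
    rw [hE] at hv ⊢
    have h3 := hMc v
    rw [hv, map_smul] at h3
    rw [neg_smul, h3, neg_neg]
  have hle : ∀ c, finrank F (E c) ≤ finrank F (E (-c)) := by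
    intro c
    refine LinearMap.finrank_le_finrank_of_injective (f := M₁.restrict (hswap c)) ?_
    intro x y hxy
    exact Subtype.ext (hMi (congrArg Subtype.val hxy))
  have heq : finrank F (E ν) = finrank F (E (-ν)) := by
    refine le_antisymm (hle ν) ?_
    have := hle (-ν)
    rwa [neg_neg] at this
  have hinf : E ν ⊓ E (-ν) = ⊥ := by
    rw [eq_bot_iff]
    rintro v ⟨hv, hv'⟩
    rw [SetLike.mem_coe, hE] at hv hv'
    rw [hv, neg_smul, ← sub_eq_zero, sub_neg_eq_add, ← two_smul F, smul_smul] at hv'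
    exact (smul_eq_zero.1 hv').resolve_left h2ν
  have hsup : E ν ⊔ E (-ν) = ⊤ := by
    rw [eq_top_iff]
    intro v _
    have h3 : v = (2 * ν)⁻¹ • (M₂ v + ν • v) + (2 * ν)⁻¹ • (ν • v - M₂ v) := by
      rw [← smul_add, show M₂ v + ν • v + (ν • v - M₂ v) = (2 * ν) • v by rw [two_mul, add_smul]; abel, smul_smul,
        inv_mul_cancel₀ h2ν, one_smul]
    rw [h3]
    refine Submodule.add_mem_sup ((E ν).smul_mem _ ?_) ((E (-ν)).smul_mem _ ?_)
    · rw [hE, map_add, map_smul, hM2, smul_add, smul_smul, add_comm]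
    · rw [hE, map_sub, map_smul, hM2, smul_sub, neg_smul, neg_smul, smul_smul]
      abel
  have hsum := Submodule.finrank_sup_add_finrank_inf_eq (E ν) (E (-ν))
  rw [hinf, hsup, finrank_bot, finrank_top, add_zero] at hsum
  -- the form is nondegenerate on `E ν`
  have hev : Even (finrank F (E ν)) := by
    let β := frm B N₁ U
    refine even_of_alt h2 (LinearMap.compl₂ (β ∘ₗ (E ν).subtype) (E ν).subtype)
      (fun u v => frm_skew hB hs₁ u v) ?_
    intro u hu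
    apply Subtype.ext
    apply frm_nd hU hN₁ hi₁
    intro v
    have hv : v ∈ E ν ⊔ E (-ν) := by rw [hsup]; trivial
    obtain ⟨a, haν, b, hb, rfl⟩ := Submodule.mem_sup.1 hv
    rw [map_add]
    have h4 : frm B N₁ U u a = 0 := hu ⟨a, haν⟩
    have h5 : frm B N₁ U u b = 0 := by
      have h6 : frm B N₁ U (M₂ u) b = frm B N₁ U u (M₂ b) := ha u u.1.2 b b.2
      rw [(hE ν u).1 u.2, (hE _ b).1 hb, map_smul, map_smul, LinearMap.smul_apply, smul_eq_mul, smul_eq_mul] at h6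
      have h7 : (2 * ν) * frm B N₁ U u b = 0 := by linear_combination h6
      exact (mul_eq_zero.1 h7).resolve_left h2ν
    rw [h4, h5, add_zero]
  obtain ⟨k, hk⟩ := hev
  exact ⟨k, by omega⟩

/-- the eigenspaces of a selfadjoint map with `N ^ 2 = ν ^ 2` are nondegenerate (use `-ν` for the other one) -/
theorem nd_inf_eig (h2 : (2 : F) ≠ 0) (hU : ∀ u ∈ U, (∀ v ∈ U, B u v = 0) → u = 0)
    (hN : ∀ v ∈ U, N v ∈ U) (ha : ∀ u ∈ U, ∀ v ∈ U, B (N u) v = B u (N v)) (hN2 : ∀ v ∈ U, N (N v) = (ν * ν) • v)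
    (hν : ν ≠ 0) :
    ∀ u ∈ U, N u = ν • u → (∀ v ∈ U, N v = ν • v → B u v = 0) → u = 0 := by
  intro u hu hNu h
  have h2ν : (2 : F) * ν ≠ 0 := mul_ne_zero h2 hν
  apply hU u hu
  intro v hv
  have h3 : v = (2 * ν)⁻¹ • (N v + ν • v) + (2 * ν)⁻¹ • (ν • v - N v) := by
    rw [← smul_add, show N v + ν • v + (ν • v - N v) = (2 * ν) • v by rw [two_mul, add_smul]; abel, smul_smul,
      inv_mul_cancel₀ h2ν, one_smul]
  have h4 : B u (N v + ν • v) = 0 := by
    apply h _ (U.add_mem (hN v hv) (U.smul_mem _ hv))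
    rw [map_add, map_smul, hN2 v hv, smul_add, smul_smul, add_comm]
  have h5 : B u (ν • v - N v) = 0 := by
    have h6 := ha u hu v hv
    rw [hNu, map_smul, LinearMap.smul_apply, smul_eq_mul] at h6
    rw [map_sub, map_smul, smul_eq_mul, h6, sub_self]
  rw [h3, map_add, map_smul, map_smul, h4, h5, smul_zero, add_zero]

end abs

section mat

open Cfsg

variable {m : ℕ} {F : Type*} [Field F] {U : Submodule F (Fin m ⊕ Fin m → F)}
  {M M₁ M₂ : Matrix (Fin m ⊕ Fin m) (Fin m ⊕ Fin m) F} {l l₁ l₂ ν : F}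

/-- the polar form of `quadFormPlus m F` -/
def bil (m : ℕ) (F : Type*) [Field F] : LinearMap.BilinForm F (Fin m ⊕ Fin m → F) :=
  LinearMap.mk₂ F (fun u v => ∑ i : Fin m, (u (.inl i) * v (.inr i) + u (.inr i) * v (.inl i)))
    (fun u u' v => by
      rw [← Finset.sum_add_distrib]
      refine Finset.sum_congr rfl fun i _ => ?_
      simp only [Pi.add_apply]
      ring)
    (fun c u v => by
      rw [smul_eq_mul, Finset.mul_sum]
      refine Finset.sum_congr rfl fun i _ => ?_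
      simp only [Pi.smul_apply, smul_eq_mul]
      ring)
    (fun u v v' => by
      rw [← Finset.sum_add_distrib]
      refine Finset.sum_congr rfl fun i _ => ?_
      simp only [Pi.add_apply]
      ring)
    (fun c u v => by
      rw [smul_eq_mul, Finset.mul_sum]
      refine Finset.sum_congr rfl fun i _ => ?_
      simp only [Pi.smul_apply, smul_eq_mul]
      ring)

theorem bil_apply (u v : Fin m ⊕ Fin m → F) :
    bil m F u v = ∑ i : Fin m, (u (.inl i) * v (.inr i) + u (.inr i) * v (.inl i)) := rfl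

theorem bil_polar (u v : Fin m ⊕ Fin m → F) : bil m F u v = QuadraticMap.polar (quadFormPlus m F) u v := by
  rw [bil_apply, QuadraticMap.polar, quadFormPlus, quadFormPlus, quadFormPlus, ← Finset.sum_sub_distrib,
    ← Finset.sum_sub_distrib]
  refine Finset.sum_congr rfl fun i _ => ?_
  simp only [Pi.add_apply]
  ring

theorem bil_comm (u v : Fin m ⊕ Fin m → F) : bil m F u v = bil m F v u := by
  rw [bil_polar, bil_polar, QuadraticMap.polar_comm]

/-- the bilinear form is nondegenerate -/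
theorem bil_nd (u : Fin m ⊕ Fin m → F) (h : ∀ v, bil m F u v = 0) : u = 0 := by
  ext i
  rcases i with i | i
  · have h1 := h (Pi.single (.inr i) 1)
    rw [bil_apply, Finset.sum_eq_single i] at h1
    · simpa using h1
    · intro j _ hj
      simp [hj]
    · intro h
      exact absurd (Finset.mem_univ i) h
  · have h1 := h (Pi.single (.inl i) 1)
    rw [bil_apply, Finset.sum_eq_single i] at h1
    · simpa using h1
    · intro j _ hj
      simp [hj]
    · intro h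
      exact absurd (Finset.mem_univ i) h

/-- `U` is nondegenerate for the polar form of `quadFormPlus m F` -/
def NdU (m : ℕ) (F : Type*) [Field F] (U : Submodule F (Fin m ⊕ Fin m → F)) : Prop :=
  ∀ u ∈ U, (∀ v ∈ U, bil m F u v = 0) → u = 0

/-- the whole space is nondegenerate -/
theorem ndU_top : NdU m F (⊤ : Submodule F (Fin m ⊕ Fin m → F)) := fun u _ h => bil_nd u fun v => h v trivial

theorem bil_mulVec {μ : F} (hs : ∀ v, quadFormPlus m F (M.mulVec v) = μ * quadFormPlus m F v) (u v : Fin m ⊕ Fin m → F) :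
    bil m F (M.mulVec u) (M.mulVec v) = μ * bil m F u v := by
  rw [bil_polar, bil_polar, QuadraticMap.polar, QuadraticMap.polar, ← Matrix.mulVec_add, hs, hs, hs]
  ring

theorem mulVec_mulVec_of_sq (hM : M * M = l • 1) (v : Fin m ⊕ Fin m → F) : M.mulVec (M.mulVec v) = l • v := by
  rw [Matrix.mulVec_mulVec, hM, Matrix.smul_mulVec, Matrix.one_mulVec]

/-- `M ^ 2 = l`, multiplier `e l`: the adjoint is `e M` -/
theorem bil_adj {e : F} (hl : l ≠ 0) (hs : ∀ v, quadFormPlus m F (M.mulVec v) = e * l * quadFormPlus m F v)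
    (hM : M * M = l • 1) (u v : Fin m ⊕ Fin m → F) :
    bil m F (M.mulVec u) v = e * bil m F u (M.mulVec v) := by
  have h1 := bil_mulVec hs u (M.mulVec v)
  rw [mulVec_mulVec_of_sq hM, map_smul, smul_eq_mul] at h1
  have h2 : l * (bil m F (M.mulVec u) v - e * bil m F u (M.mulVec v)) = 0 := by
    linear_combination h1
  exact sub_eq_zero.1 ((mul_eq_zero.1 h2).resolve_left hl)

theorem inj_of_sq (hl : l ≠ 0) (hM : M * M = l • 1) (v : Fin m ⊕ Fin m → F) (h : M.mulVec v = 0) : v = 0 := by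
  have h1 := mulVec_mulVec_of_sq hM v
  rw [h, Matrix.mulVec_zero] at h1
  exact (smul_eq_zero.1 h1.symm).resolve_left hl

/-- **PAR 1**: `M` skew -/
theorem par_skew (h2 : (2 : F) ≠ 0) (hU : NdU m F U) (hl : l ≠ 0)
    (hs : ∀ v, quadFormPlus m F (M.mulVec v) = -l * quadFormPlus m F v) (hM : M * M = l • 1)
    (hMU : ∀ u ∈ U, M.mulVec u ∈ U) : Even (finrank F U) := by
  have hs' : ∀ v, quadFormPlus m F (M.mulVec v) = (-1) * l * quadFormPlus m F v := fun v => by rw [hs]; ring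
  refine even_of_skew h2 (B := bil m F) (N := M.mulVecLin)
    bil_comm hU hMU ?_ (fun v _ hv => inj_of_sq hl hM v hv)
  intro u _ v _
  have := bil_adj hl hs' hM u v
  rw [neg_one_mul] at this
  exact this

/-- **PAR 2**: `M ^ 2` not a square (`U` arbitrary) -/
theorem par_nonsq (hl : ¬ IsSquare l) (hM : M * M = l • 1) (hMU : ∀ u ∈ U, M.mulVec u ∈ U) : Even (finrank F U) :=
  even_of_nonsq (N := M.mulVecLin) hMU (fun v _ => mulVec_mulVec_of_sq hM v) hl

/-- **PAR 3**: anticommuting (`U` arbitrary) -/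
theorem par_anticomm (h2 : (2 : F) ≠ 0) (hl₁ : l₁ ≠ 0) (hM₁ : M₁ * M₁ = l₁ • 1) (hl₂ : l₂ ≠ 0)
    (hM₂ : M₂ * M₂ = l₂ • 1) (hc : M₁ * M₂ = -(M₂ * M₁)) (h₁ : ∀ u ∈ U, M₁.mulVec u ∈ U)
    (h₂ : ∀ u ∈ U, M₂.mulVec u ∈ U) : Even (finrank F U) := by
  refine even_of_anticomm h2 (N₁ := M₁.mulVecLin) (N₂ := M₂.mulVecLin) h₁ h₂ ?_
    (fun v _ hv => inj_of_sq hl₁ hM₁ v hv) (fun v _ hv => inj_of_sq hl₂ hM₂ v hv)
  intro v _
  show M₁.mulVec (M₂.mulVec v) = -M₂.mulVec (M₁.mulVec v)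
  rw [Matrix.mulVec_mulVec, Matrix.mulVec_mulVec, hc, Matrix.neg_mulVec]

/-- **PAR 4**: `M₁`, `M₂` skew, anticommuting -/
theorem par_skew_skew (h2 : (2 : F) ≠ 0) (hU : NdU m F U) (hl₁ : l₁ ≠ 0)
    (hs₁ : ∀ v, quadFormPlus m F (M₁.mulVec v) = -l₁ * quadFormPlus m F v) (hM₁ : M₁ * M₁ = l₁ • 1)
    (hl₂ : l₂ ≠ 0) (hs₂ : ∀ v, quadFormPlus m F (M₂.mulVec v) = -l₂ * quadFormPlus m F v) (hM₂ : M₂ * M₂ = l₂ • 1)
    (hc : M₁ * M₂ = -(M₂ * M₁)) (h₁ : ∀ u ∈ U, M₁.mulVec u ∈ U) (h₂ : ∀ u ∈ U, M₂.mulVec u ∈ U) :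
    4 ∣ finrank F U := by
  have hs₁' : ∀ v, quadFormPlus m F (M₁.mulVec v) = (-1) * l₁ * quadFormPlus m F v := fun v => by rw [hs₁]; ring
  have hs₂' : ∀ v, quadFormPlus m F (M₂.mulVec v) = (-1) * l₂ * quadFormPlus m F v := fun v => by rw [hs₂]; ring
  refine four_of_skew_skew h2 (B := bil m F) (N₁ := M₁.mulVecLin) (N₂ := M₂.mulVecLin)
    (l := l₂) bil_comm hU h₁ ?_ (fun v _ hv => inj_of_sq hl₁ hM₁ v hv) h₂ ?_ ?_
    (fun v _ => mulVec_mulVec_of_sq hM₂ v) hl₂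
  · intro u _ v _
    have := bil_adj hl₁ hs₁' hM₁ u v
    rw [neg_one_mul] at this
    exact this
  · intro u _ v _
    have := bil_adj hl₂ hs₂' hM₂ u v
    rw [neg_one_mul] at this
    exact this
  · intro v _
    show M₁.mulVec (M₂.mulVec v) = -M₂.mulVec (M₁.mulVec v)
    rw [Matrix.mulVec_mulVec, Matrix.mulVec_mulVec, hc, Matrix.neg_mulVec]

/-- **PAR 5**: `M₁` skew, `M₂` selfadjoint with `M₂ ^ 2` not a square, commuting -/
theorem par_skew_nonsq (h2 : (2 : F) ≠ 0) (hU : NdU m F U) (hl₁ : l₁ ≠ 0)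
    (hs₁ : ∀ v, quadFormPlus m F (M₁.mulVec v) = -l₁ * quadFormPlus m F v) (hM₁ : M₁ * M₁ = l₁ • 1)
    (hl₂ : ¬ IsSquare l₂) (hs₂ : ∀ v, quadFormPlus m F (M₂.mulVec v) = l₂ * quadFormPlus m F v)
    (hM₂ : M₂ * M₂ = l₂ • 1)
    (hc : M₁ * M₂ = M₂ * M₁) (h₁ : ∀ u ∈ U, M₁.mulVec u ∈ U) (h₂ : ∀ u ∈ U, M₂.mulVec u ∈ U) :
    4 ∣ finrank F U := by
  have hl₂0 : l₂ ≠ 0 := by
    rintro rfl
    exact hl₂ IsSquare.zero
  have hs₁' : ∀ v, quadFormPlus m F (M₁.mulVec v) = (-1) * l₁ * quadFormPlus m F v := fun v => by rw [hs₁]; ring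
  have hs₂' : ∀ v, quadFormPlus m F (M₂.mulVec v) = 1 * l₂ * quadFormPlus m F v := fun v => by rw [hs₂, one_mul]
  refine four_of_skew_nonsq h2 (B := bil m F) (N₁ := M₁.mulVecLin) (N₂ := M₂.mulVecLin)
    (l := l₂) bil_comm hU h₁ ?_ (fun v _ hv => inj_of_sq hl₁ hM₁ v hv) h₂ ?_ ?_
    (fun v _ => mulVec_mulVec_of_sq hM₂ v) hl₂
  · intro u _ v _
    have := bil_adj hl₁ hs₁' hM₁ u v
    rw [neg_one_mul] at this
    exact this
  · intro u _ v _
    have := bil_adj hl₂0 hs₂' hM₂ u v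
    rw [one_mul] at this
    exact this
  · intro v _
    show M₁.mulVec (M₂.mulVec v) = M₂.mulVec (M₁.mulVec v)
    rw [Matrix.mulVec_mulVec, Matrix.mulVec_mulVec, hc]

/-- the eigenspace of `M` -/
def eigM (M : Matrix (Fin m ⊕ Fin m) (Fin m ⊕ Fin m) F) (ν : F) : Submodule F (Fin m ⊕ Fin m → F) :=
  LinearMap.ker (M.mulVecLin - ν • LinearMap.id)

theorem mem_eigM {v : Fin m ⊕ Fin m → F} : v ∈ eigM M ν ↔ M.mulVec v = ν • v := by
  rw [eigM, LinearMap.mem_ker, LinearMap.sub_apply, LinearMap.smul_apply, LinearMap.id_apply, sub_eq_zero,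
    Matrix.mulVecLin_apply]

/-- **PAR 6**: `M` selfadjoint, `M ^ 2 = ν ^ 2`: the eigenspaces on `U` are nondegenerate -/
theorem par_nd_inf (h2 : (2 : F) ≠ 0) (hU : NdU m F U) (hν : ν ≠ 0)
    (hs : ∀ v, quadFormPlus m F (M.mulVec v) = ν * ν * quadFormPlus m F v) (hM : M * M = (ν * ν) • 1)
    (hMU : ∀ u ∈ U, M.mulVec u ∈ U) : NdU m F (U ⊓ eigM M ν) := by
  have hs' : ∀ v, quadFormPlus m F (M.mulVec v) = 1 * (ν * ν) * quadFormPlus m F v := fun v => by rw [hs, one_mul]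
  rintro u ⟨hu, hu'⟩ h
  refine nd_inf_eig h2 (B := bil m F) (N := M.mulVecLin) hU hMU ?_
    (fun v _ => mulVec_mulVec_of_sq hM v) hν u hu (mem_eigM.1 hu') (fun v hv hv' => h v ⟨hv, mem_eigM.2 hv'⟩)
  intro u _ v _
  have := bil_adj (mul_ne_zero hν hν) hs' hM u v
  rw [one_mul] at this
  exact this

/-- an invertible `N` commuting (up to a sign) with `M` and preserving `U` -/
theorem inv_inf_eig {N : Matrix (Fin m ⊕ Fin m) (Fin m ⊕ Fin m) F} (hU : ∀ u ∈ U, N.mulVec u ∈ U)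
    (hc : N * M = M * N) : ∀ u ∈ U ⊓ eigM M ν, N.mulVec u ∈ U ⊓ eigM M ν := by
  rintro u ⟨hu, hu'⟩
  refine ⟨hU u hu, ?_⟩
  rw [SetLike.mem_coe, mem_eigM] at hu' ⊢
  rw [Matrix.mulVec_mulVec, ← hc, ← Matrix.mulVec_mulVec, hu', Matrix.mulVec_smul]

end mat

end Cfsg.Agent.H79.Co3
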